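import Cfsg.Agent.E7P.Frm.Tor
import Cfsg.Agent.H199.PslAut
import Cfsg.Agent.H259.NatMod

/-!
# S5932: the basic facts on `M` (helper32)

* `Sit.NB n` : `n ∈ M` acts on `A` as a diagonal-field automorphism; `exists_NB` : `M = NB · A`; `norm_ψ`;
* `Sit.base` : a subgroup normalised by `M` contains `A` or its `σ`-fixed points are central;
* `Sit.CA` : the centraliser of `A`; `cent_fix`; `ck`, `pt` (from `SSC`); `eq_U`.
-/

set_option autoImplicit false
set_option maxRecDepth 100000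

namespace Cfsg.Agent.E7P

open Cfsg Cfsg.Lie Matrix Module
open Cfsg.Agent.H943.E7V.Block (D1 rho)
open Cfsg.Agent.R2.T1 Cfsg.Agent.E7P.Kf
open Cfsg.Agent.H943.SL2Rel
open Cfsg.Agent.R2.H9.E6 (pq pq_surjective pq_eq_one)
open Cfsg.Agent.ClassicalGeometry.AutPSL.Root (pr pr_surjective)
open Cfsg.Agent.ClassicalGeometry.AutPSL.Auto (cj coe_cj fld coe_fld_apply)
open Cfsg.Agent.H199.PslAut (Psi phi Psi_pr phi_pr Psi_coe exists_form)
open scoped commutatorElement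

universe u v

namespace Kf

variable {K : Type v} [Field K]

/-- `diag(c, 1)` -/
def dg (c : Kˣ) : GL (Fin 2) K := ⟨!![(c : K), 0; 0, 1], !![((c⁻¹ : Kˣ) : K), 0; 0, 1], by
    ext i j; fin_cases i <;> fin_cases j <;> simp [Matrix.mul_apply, Fin.sum_univ_two], by
    ext i j; fin_cases i <;> fin_cases j <;> simp [Matrix.mul_apply, Fin.sum_univ_two]⟩

/-- the diagonal-field automorphisms of `SL₂(K)` -/
def aut (c : Kˣ) (τ : K ≃+* K) : MulAut (SpecialLinearGroup (Fin 2) K) := cj (dg c) * fld τ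

theorem aut_aux (c : Kˣ) (τ : K ≃+* K) (x y z t : K) :
    !![(c : K), 0; 0, 1] * (!![x, y; z, t].map τ) * !![((c⁻¹ : Kˣ) : K), 0; 0, 1] =
      !![τ x, c * τ y; τ z * ((c⁻¹ : Kˣ) : K), τ t] := by
  have h1 : !![x, y; z, t].map τ = !![τ x, τ y; τ z, τ t] := by
    ext i j
    fin_cases i <;> fin_cases j <;> rfl
  rw [h1, Matrix.mul_fin_two, Matrix.mul_fin_two]
  have h2 : (c : K) * τ x * ((c⁻¹ : Kˣ) : K) = τ x := by
    rw [mul_comm, ← mul_assoc, Units.inv_mul, one_mul]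
  simp only [zero_mul, mul_zero, add_zero, zero_add, one_mul, mul_one, h2]

theorem aut_eq (c : Kˣ) (τ : K ≃+* K) (x y z t : K) (s : SpecialLinearGroup (Fin 2) K) (hs : s.1 = !![x, y; z, t]) :
    (aut c τ s).1 = !![τ x, c * τ y; τ z * ((c⁻¹ : Kˣ) : K), τ t] := by
  rw [← aut_aux, ← hs]
  rfl

theorem aut_u (c : Kˣ) (τ : K ≃+* K) (t : K) : aut c τ (u t) = u (c * τ t) := by
  apply Subtype.ext
  rw [aut_eq c τ 1 t 0 1 (u t) rfl, map_one, map_zero, zero_mul]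
  rfl

theorem aut_h (c : Kˣ) (τ : K ≃+* K) (a : Kˣ) : aut c τ (h a) = h (Units.map (τ : K →* K) a) := by
  apply Subtype.ext
  rw [aut_eq c τ a 0 0 (a : K)⁻¹ (h a) rfl, map_zero, zero_mul, mul_zero, map_inv₀]
  rfl

theorem aut_w (c : Kˣ) (τ : K ≃+* K) : aut c τ w = h c * w := by
  apply Subtype.ext
  rw [aut_eq c τ 0 1 (-1) 0 w rfl, map_zero, map_one, map_neg, map_one]
  show _ = !![(c : K), 0; 0, (c : K)⁻¹] * !![0, 1; -1, 0]
  rw [Matrix.mul_fin_two, Units.val_inv_eq_inv_val]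
  simp

theorem exists_dg (g : GL (Fin 2) K) : ∃ (c : Kˣ) (s : SpecialLinearGroup (Fin 2) K), g = dg c * (s : GL (Fin 2) K) := by
  have hdet : ∀ c : Kˣ, Matrix.det ((dg c : GL (Fin 2) K) : Matrix (Fin 2) (Fin 2) K) = c := by
    intro c
    show Matrix.det !![(c : K), 0; 0, 1] = c
    rw [Matrix.det_fin_two_of]
    ring
  refine ⟨Matrix.GeneralLinearGroup.det g, ⟨(((dg (Matrix.GeneralLinearGroup.det g))⁻¹ * g : GL (Fin 2) K) :
    Matrix (Fin 2) (Fin 2) K), ?_⟩, ?_⟩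
  · have h1 : Matrix.GeneralLinearGroup.det (dg (Matrix.GeneralLinearGroup.det g)) = Matrix.GeneralLinearGroup.det g := by
      apply Units.ext
      exact hdet _
    have h2 : Matrix.GeneralLinearGroup.det ((dg (Matrix.GeneralLinearGroup.det g))⁻¹ * g) = 1 := by
      rw [map_mul, map_inv, h1, inv_mul_cancel]
    exact congrArg Units.val h2
  · apply Units.ext
    show (g : Matrix (Fin 2) (Fin 2) K) = (dg (Matrix.GeneralLinearGroup.det g) : Matrix (Fin 2) (Fin 2) K) *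
      (((dg (Matrix.GeneralLinearGroup.det g))⁻¹ * g : GL (Fin 2) K) : Matrix (Fin 2) (Fin 2) K)
    rw [← Units.val_mul, mul_inv_cancel_left]

/-- a subgroup of a perfect group which contains all elements modulo the centre -/
theorem mem_of_perfect {X Y : Type*} [Group X] [Group Y] (hX : commutator X = ⊤) (f : X →* Y) {D : Subgroup Y}
    (h : ∀ x, ∃ d ∈ D, d⁻¹ * f x ∈ Subgroup.center Y) (x : X) : f x ∈ D := by
  have h1 : commutator X ≤ D.comap f := by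
    rw [commutator_def, Subgroup.commutator_le]
    intro a _ b _
    obtain ⟨d, hd, h1⟩ := h a
    obtain ⟨e, he, h2⟩ := h b
    have h3 : f ⁅a, b⁆ = ⁅d, e⁆ := by
      rw [map_commutatorElement, show f a = d * (d⁻¹ * f a) by group, show f b = e * (e⁻¹ * f b) by group]
      generalize d⁻¹ * f a = z at h1
      generalize e⁻¹ * f b = z' at h2
      have h4 := Subgroup.mem_center_iff.1 h1
      have h5 := Subgroup.mem_center_iff.1 h2
      rw [commutatorElement_def, commutatorElement_def]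
      calc d * z * (e * z') * (d * z)⁻¹ * (e * z')⁻¹ = d * (z * (e * z')) * z⁻¹ * d⁻¹ * z'⁻¹ * e⁻¹ := by group
        _ = d * e * (z' * d⁻¹) * z'⁻¹ * e⁻¹ := by rw [← h4]; group
        _ = _ := by rw [← h5]; group
    rw [Subgroup.mem_comap, h3, commutatorElement_def]
    exact mul_mem (mul_mem (mul_mem hd he) (inv_mem hd)) (inv_mem he)
  exact h1 (hX ▸ Subgroup.mem_top x)

theorem eq_of_perfect {X Y : Type*} [Group X] [Group Y] (hX : commutator X = ⊤) {f g : X →* Y}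
    (h : ∀ x, (g x)⁻¹ * f x ∈ Subgroup.center Y) (x : X) : f x = g x := by
  have h1 : (f.prod g) x ∈ (MonoidHom.fst Y Y).eqLocus (MonoidHom.snd Y Y) :=
    mem_of_perfect hX (f.prod g) (fun x => ⟨(g x, g x), rfl, Subgroup.mem_center_iff.2 fun y => Prod.ext
      (Subgroup.mem_center_iff.1 (h x) y.1) (by
        show y.2 * ((g x)⁻¹ * g x) = (g x)⁻¹ * g x * y.2
        rw [inv_mul_cancel, mul_one, one_mul])⟩) x
  exact h1

/-- additive subgroups which are stable under the squares -/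
theorem eq_top_of_sq [Finite K] {B : AddSubgroup K} (h : ∀ c : K, ∀ t ∈ B, c ^ 2 * t ∈ B) (h0 : B ≠ ⊥) : B = ⊤ := by
  have h1 : ∀ c : K, ∀ t ∈ B, c * t ∈ B := by
    intro c t ht
    by_cases h2 : (2 : K) = 0
    · have : CharP K 2 := CharTwo.of_one_ne_zero_of_two_eq_zero one_ne_zero h2
      obtain ⟨d, hd⟩ := FiniteField.isSquare_of_char_two (F := K) (ringChar.eq K 2) c
      rw [hd, ← sq]
      exact h d t ht
    · have h3 := sub_mem (h ((c + 1) / 2) t ht) (h ((c - 1) / 2) t ht)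
      rwa [show ((c + 1) / 2) ^ 2 * t - ((c - 1) / 2) ^ 2 * t = c * t by field_simp; ring] at h3
  obtain ⟨⟨t, ht⟩, ht0⟩ := AddSubgroup.ne_bot_iff_exists_ne_zero.1 h0
  have ht0' : t ≠ 0 := fun e => ht0 (Subtype.ext e)
  rw [eq_top_iff]
  intro x _
  have h2 := h1 (x / t) t ht
  rwa [div_mul_cancel₀ _ ht0'] at h2

end Kf

namespace Sit

variable {p a b : ℕ} {F : Type u} {K : Type v} {k : Type u} [Field F] [Fintype F] [Field K] [Fintype K] [Field k]
  (S : Sit p a b F K k)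

include S in
theorem perfect : commutator (SpecialLinearGroup (Fin 2) K) = ⊤ := H259.NatMod.commutator_eq_top S.k_four

theorem emb_center {z : Gh F} (hz : z ∈ Subgroup.center (Gh F)) : emb S.f z ∈ Subgroup.center (Gh k) := by
  rw [← ker_ad, MonoidHom.mem_ker] at hz ⊢
  rw [ad_emb, hz, map_one]

theorem center_of_emb {z : Gh F} (hz : emb S.f z ∈ Subgroup.center (Gh k)) : z ∈ Subgroup.center (Gh F) :=
  Subgroup.mem_center_iff.2 fun g => emb_injective S.f (by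
    rw [map_mul, map_mul]; exact Subgroup.mem_center_iff.1 hz _)

theorem center_le_M {z : Gh k} (hz : z ∈ Subgroup.center (Gh k)) : z ∈ S.M := by
  obtain ⟨z0, rfl⟩ := S.k_desc (S.k_σ_center hz)
  refine ⟨z0, ?_, rfl⟩
  have h1 := S.center_of_emb hz
  rw [← ker_ad, MonoidHom.mem_ker] at h1
  show ad F z0 ∈ S.H
  rw [h1]; exact one_mem _

theorem ψ_mem_center {x : SpecialLinearGroup (Fin 2) K} : S.ψ x ∈ Subgroup.center (Gh k) ↔ x = 1 ∨ x = -1 := by
  rw [← pq_eq_one]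
  constructor
  · intro h1
    have h2 := S.center_of_emb h1
    rw [← ker_ad, MonoidHom.mem_ker, S.lift] at h2
    exact S.max.inj (by rw [h2, map_one])
  · intro h1
    refine S.emb_center ?_
    rw [← ker_ad, MonoidHom.mem_ker, S.lift, h1, map_one]

/-- the elements of `M` which act by diagonal-field automorphisms -/
def NB (n : Gh k) : Prop := n ∈ S.M ∧ ∃ (c : Kˣ) (τ : K ≃+* K), ∀ x, S.ψ (aut c τ x) = n * S.ψ x * n⁻¹

/-- **the action of `M`** -/
theorem exists_NB {m : Gh k} (hm : m ∈ S.M) : ∃ n x, S.NB n ∧ m = n * S.ψ x := by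
  obtain ⟨m0, hm0, rfl⟩ := hm
  obtain ⟨ac, -, h1, -⟩ := S.max.act
  rcases exists_form (n := 2) le_rfl (ac ⟨ad F m0, hm0⟩) with ⟨g, τ, hg⟩ | ⟨h3, -⟩
  swap
  · omega
  obtain ⟨c, s0, rfl⟩ := exists_dg g
  obtain ⟨s₁, hs₁⟩ : ∃ s₁, fld τ s₁ = s0 := (fld τ).surjective s0
  refine ⟨emb S.f m0 * (S.ψ s₁)⁻¹, s₁, ⟨mul_mem ⟨m0, hm0, rfl⟩ (inv_mem (S.k_ψ_mem _)), c, τ, ?_⟩, by group⟩
  refine eq_of_perfect S.perfect (f := S.ψ.comp (aut c τ).toMonoidHom)
    (g := (MulAut.conj (emb S.f m0 * (S.ψ s₁)⁻¹)).toMonoidHom.comp S.ψ) fun s => ?_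
  have h2 : ac ⟨ad F m0, hm0⟩ ((pq s₁)⁻¹ * pq s * pq s₁) = pq (aut c τ s) := by
    rw [hg, ← map_inv, ← map_mul, ← map_mul, map_mul, Psi_coe, MulAut.mul_apply, MulAut.mul_apply]
    have h3 : phi 2 K τ (pq (s₁⁻¹ * s * s₁)) = pr (s0⁻¹ * fld τ s * s0) := by
      show pr (fld τ (s₁⁻¹ * s * s₁)) = _
      rw [map_mul (fld τ), map_mul (fld τ), map_inv (fld τ), hs₁]
    rw [h3, MulAut.conj_apply, ← map_inv, ← map_mul, ← map_mul]
    have h4 : s0 * (s0⁻¹ * fld τ s * s0) * s0⁻¹ = fld τ s := by group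
    rw [h4]
    rfl
  have h3 := h1 ⟨ad F m0, hm0⟩ ((pq s₁)⁻¹ * pq s * pq s₁)
  rw [h2] at h3
  have h4 : (m0 * (S.ψ0 s₁)⁻¹ * S.ψ0 s * (m0 * (S.ψ0 s₁)⁻¹)⁻¹)⁻¹ * S.ψ0 (aut c τ s) ∈ Subgroup.center (Gh F) := by
    rw [← ker_ad, MonoidHom.mem_ker]
    simp only [map_mul, map_inv, S.lift] at h3 ⊢
    rw [h3]
    group
  have h5 := S.emb_center h4
  simp only [map_mul, map_inv] at h5
  exact h5

theorem exists_NB' {m : Gh k} (hm : m ∈ S.M) : ∃ n x, S.NB n ∧ m = S.ψ x * n := by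
  obtain ⟨n, x, hn, rfl⟩ := S.exists_NB hm
  obtain ⟨c, τ, h1⟩ := hn.2
  exact ⟨n, aut c τ x, hn, by rw [h1]; group⟩

/-- `M` normalises `A` -/
theorem norm_ψ {m : Gh k} (hm : m ∈ S.M) (x : SpecialLinearGroup (Fin 2) K) : ∃ x', m * S.ψ x * m⁻¹ = S.ψ x' := by
  obtain ⟨n, y, ⟨-, c, τ, h1⟩, rfl⟩ := S.exists_NB hm
  exact ⟨aut c τ (y * x * y⁻¹), by rw [h1, map_mul, map_mul, map_inv]; group⟩

variable {S} in
theorem NB.inv {n : Gh k} (hn : S.NB n) : S.NB n⁻¹ := by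
  obtain ⟨hm, c, τ, h1⟩ := hn
  refine ⟨inv_mem hm, Units.map (τ.symm : K →* K) c⁻¹, τ.symm, fun x => ?_⟩
  have h2 : aut c τ (aut (Units.map (τ.symm : K →* K) c⁻¹) τ.symm x) = x := by
    refine induct (P := fun x => aut c τ (aut (Units.map (τ.symm : K →* K) c⁻¹) τ.symm x) = x) (fun t => ?_) (fun a => ?_)
      ?_ (fun a b ha hb => by rw [map_mul, map_mul, ha, hb]) x
    · rw [aut_u, aut_u]
      congr 1
      simp
    · rw [aut_h, aut_h]
      congr 1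
      ext; simp
    · rw [aut_w, map_mul, aut_h, aut_w, ← mul_assoc, ← h_mul]
      have h3 : Units.map (τ : K →* K) (Units.map (τ.symm : K →* K) c⁻¹) * c = 1 := by ext; simp
      rw [h3, h_one, one_mul]
  have h3 := h1 (aut (Units.map (τ.symm : K →* K) c⁻¹) τ.symm x)
  rw [h2] at h3
  rw [h3]; group

variable {S} in
theorem NB.conj_U {n : Gh k} (hn : S.NB n) {x : Gh k} (hx : x ∈ S.U) : n * x * n⁻¹ ∈ S.U := by
  obtain ⟨t, rfl⟩ := hx
  obtain ⟨-, c, τ, h1⟩ := hn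
  exact ⟨_, by rw [← h1, aut_u]⟩

variable {S} in
theorem NB.mem_P {n : Gh k} (hn : S.NB n) : n ∈ S.P := S.mem_P_of_norm fun x hx => by
  have h1 := hn.inv.conj_U hx
  rwa [inv_inv] at h1

variable {S} in
theorem NB.mem_P' {n : Gh k} (hn : S.NB n) : n ∈ S.P' := by
  obtain ⟨c, τ, h1⟩ := hn.inv.2
  have h2 := h1 w
  rw [aut_w, inv_inv] at h2
  rw [S.mem_P', show (S.ψ w)⁻¹ * n * S.ψ w = n * (n⁻¹ * S.ψ w * n)⁻¹ * S.ψ w by group, ← h2, h_w, map_mul,
    show n * (S.ψ w * S.ψ (h c⁻¹))⁻¹ * S.ψ w = n * (S.ψ (h c⁻¹))⁻¹ by group]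
  exact mul_mem hn.mem_P (inv_mem (S.ψ_h_mem_P _))

/-- **BASE** -/
theorem base {D : Subgroup (Gh k)} (hM : ∀ m ∈ S.M, ∀ x ∈ D, m * x * m⁻¹ ∈ D) :
    (∀ y ∈ D, S.σ y = y → y ∈ Subgroup.center (Gh k)) ∨ ∀ x, S.ψ x ∈ D := by
  let D0 := D.comap (emb S.f)
  have hn : ∀ m ∈ S.M0, ∀ x ∈ D0, m * x * m⁻¹ ∈ D0 := fun m hm x hx => by
    show emb S.f _ ∈ D
    rw [map_mul, map_mul, map_inv]
    exact hM _ ⟨m, hm, rfl⟩ _ hx
  have h1 : S.M0 ≤ Subgroup.normalizer (D0 : Set (Gh F)) := fun m hm =>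
    Subgroup.mem_normalizer_iff.2 fun x => ⟨hn m hm x, fun hx => by
      have h2 := hn _ (inv_mem hm) _ hx
      rwa [show m⁻¹ * (m * x * m⁻¹) * m⁻¹⁻¹ = x by group] at h2⟩
  have key : D0.map (ad F) = ⊥ ∨ S.φ.range ≤ D0.map (ad F) := by
    rcases S.k_max h1 with h2 | h2
    · by_cases h3 : D0.map (ad F) = ⊥
      · exact Or.inl h3
      refine Or.inr (S.max.min _ ?_ ?_ h3)
      · rintro _ ⟨x, hx, rfl⟩
        have h4 : x ∈ S.M0 := h2 ▸ Subgroup.le_normalizer hx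
        exact h4
      · rintro y hy _ ⟨x, hx, rfl⟩
        obtain ⟨m, rfl⟩ := ad_surjective y
        exact ⟨_, hn m hy x hx, by rw [map_mul, map_mul, map_inv]⟩
    · have h3 : D0.Normal := Subgroup.normalizer_eq_top_iff.1 h2
      have h4 := simpleE7 (K := F)
      rcases (h3.map (ad F) ad_surjective).eq_bot_or_eq_top with h5 | h5
      · exact Or.inl h5
      · exact Or.inr (h5 ▸ le_top)
  rcases key with h2 | h2
  · left
    intro y hy hσ
    obtain ⟨y0, rfl⟩ := S.k_desc hσ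
    rw [Subgroup.map_eq_bot_iff, ker_ad] at h2
    exact S.emb_center (h2 hy)
  · right
    refine mem_of_perfect S.perfect S.ψ0 (D := D0) fun x => ?_
    obtain ⟨d, hd, e⟩ := h2 ⟨pq x, rfl⟩
    refine ⟨d, hd, ?_⟩
    rw [← ker_ad, MonoidHom.mem_ker, map_mul, map_inv, e, S.lift, inv_mul_cancel]

/-- the `σ`-fixed points of a subgroup normalised by `M` lie in `M` or they are everything -/
theorem fix_le_M {D : Subgroup (Gh k)} (hM : ∀ m ∈ S.M, ∀ x ∈ D, m * x * m⁻¹ ∈ D) :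
    (∀ y ∈ D, S.σ y = y → y ∈ S.M) ∨ ∀ y0, emb S.f y0 ∈ D := by
  let D0 := D.comap (emb S.f)
  have hn : ∀ m ∈ S.M0, ∀ x ∈ D0, m * x * m⁻¹ ∈ D0 := fun m hm x hx => by
    show emb S.f _ ∈ D
    rw [map_mul, map_mul, map_inv]
    exact hM _ ⟨m, hm, rfl⟩ _ hx
  have h1 : S.M0 ≤ Subgroup.normalizer (D0 : Set (Gh F)) := fun m hm =>
    Subgroup.mem_normalizer_iff.2 fun x => ⟨hn m hm x, fun hx => by
      have h2 := hn _ (inv_mem hm) _ hx
      rwa [show m⁻¹ * (m * x * m⁻¹) * m⁻¹⁻¹ = x by group] at h2⟩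
  rcases S.k_max h1 with h2 | h2
  · left
    intro y hy hσ
    obtain ⟨y0, rfl⟩ := S.k_desc hσ
    exact ⟨y0, h2 ▸ Subgroup.le_normalizer hy, rfl⟩
  · have h3 : D0.Normal := Subgroup.normalizer_eq_top_iff.1 h2
    have h4 := simpleE7 (K := F)
    rcases (h3.map (ad F) ad_surjective).eq_bot_or_eq_top with h5 | h5
    · left
      intro y hy hσ
      obtain ⟨y0, rfl⟩ := S.k_desc hσ
      rw [Subgroup.map_eq_bot_iff, ker_ad] at h5
      exact S.center_le_M (S.emb_center (h5 hy))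
    · right
      have h6 : ∀ y0 : Gh F, ∃ d ∈ D0, d⁻¹ * y0 ∈ Subgroup.center (Gh F) := fun y0 => by
        obtain ⟨d, hd, e⟩ : ad F y0 ∈ D0.map (ad F) := h5 ▸ Subgroup.mem_top _
        refine ⟨d, hd, ?_⟩
        rw [← ker_ad, MonoidHom.mem_ker, map_mul, map_inv, e, inv_mul_cancel]
      refine mem_of_gens (S := D0) fun r hr t => ?_
      obtain ⟨d, hd, h7⟩ := h6 (xs F r t)
      have := S.charF
      have h8 : xs F r t ^ p = 1 := by
        have h9 : ∀ n : ℕ, xs F r t ^ n = xs F r (n * t) := fun n => by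
          induction n with
          | zero => rw [pow_zero, Nat.cast_zero, zero_mul, xs_zero]
          | succ n ih => rw [pow_succ, ih, xs_mul, Nat.cast_succ, add_mul, one_mul]
        rw [h9, CharP.cast_eq_zero, zero_mul, xs_zero]
      rcases V_center h7 with h9 | h9
      · rw [← inv_mul_eq_one.1 (faithful h9)]; exact hd
      rcases S.prime.eq_two_or_odd' with h10 | ⟨n, h10⟩
      · subst h10
        have h11 : V F (d⁻¹ * xs F r t) = 1 := by
          rw [h9]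
          exact LinearMap.ext fun v => funext fun i => CharTwo.neg_eq (v i)
        rw [← inv_mul_eq_one.1 (faithful h11)]; exact hd
      · have h11 : (d⁻¹ * xs F r t) ^ 2 = 1 := faithful (by
          rw [map_pow, h9]; exact neg_one_sq (R := Module.End F (D1 → F)))
        have h12 : Commute d (d⁻¹ * xs F r t) := Subgroup.mem_center_iff.1 h7 d
        have h13 : xs F r t = d ^ (2 * (n + 1)) := by
          calc xs F r t = xs F r t ^ (p + 1) := by rw [pow_succ, h8, one_mul]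
            _ = (d * (d⁻¹ * xs F r t)) ^ (2 * (n + 1)) := by rw [mul_inv_cancel_left, h10]; rfl
            _ = _ := by rw [h12.mul_pow, pow_mul (d⁻¹ * xs F r t), h11, one_pow, mul_one]
        rw [h13]; exact pow_mem hd _

/-- the centraliser of `A` -/
def CA : Subgroup (Gh k) := Subgroup.centralizer (Set.range S.ψ)

theorem mem_CA {c : Gh k} : c ∈ S.CA ↔ S.Cent c :=
  ⟨fun h x => h _ ⟨x, rfl⟩, fun h => by rintro _ ⟨x, rfl⟩; exact h x⟩

theorem σ_mem_CA {c : Gh k} (hc : c ∈ S.CA) : S.σ c ∈ S.CA := S.mem_CA.2 fun x => by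
  rw [← S.k_σ_ψ x, ← map_mul, ← map_mul, S.mem_CA.1 hc]

theorem conj_mem_CA {m : Gh k} (hm : m ∈ S.M) {c : Gh k} (hc : c ∈ S.CA) : m * c * m⁻¹ ∈ S.CA := S.mem_CA.2 fun x => by
  obtain ⟨x', h1⟩ := S.norm_ψ (inv_mem hm) x
  rw [show S.ψ x = m * S.ψ x' * m⁻¹ by rw [← h1]; group,
    show m * S.ψ x' * m⁻¹ * (m * c * m⁻¹) = m * (S.ψ x' * c) * m⁻¹ by group, S.mem_CA.1 hc]
  group

/-- the rational points of the centraliser of `A` are central -/
theorem cent_fix {y : Gh k} (hy : S.Cent y) (hσ : S.σ y = y) : y ∈ Subgroup.center (Gh k) := by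
  obtain ⟨y0, rfl⟩ := S.k_desc hσ
  refine S.emb_center ?_
  rw [← ker_ad, MonoidHom.mem_ker]
  refine S.max.cent _ fun x => ?_
  obtain ⟨x, rfl⟩ := pq_surjective x
  rw [← S.lift, ← map_mul, ← map_mul]
  congr 1
  exact emb_injective S.f (by rw [map_mul, map_mul]; exact hy x)

/-- **CK** -/
theorem ck (hs : S.SSC) : S.CK := by
  intro c hc hp
  rcases S.fpf' (D := S.CA) (fun _ => S.σ_mem_CA) (fun _ hm _ => S.conj_mem_CA hm)
    (fun y hy => S.cent_fix (S.mem_CA.1 hy)) (S.mem_CA.2 hc) hp with h1 | ⟨-, y, hy, -, h1⟩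
  · exact h1
  · exact (hs y (S.mem_CA.1 hy) h1).elim

theorem σ_σ_of_neg {y : Gh k} (h1 : V k (S.σ y) = - V k y) : y⁻¹ * S.σ y ∈ Subgroup.center (Gh k) := by
  refine mem_center_iff.2 (Or.inr ?_)
  refine neg_of fun v => ?_
  rw [V_mul, h1, LinearMap.neg_apply, map_neg, V_inv]

/-- **FPF** with `SSC` : a `σ`-stable subgroup normalised by `M` which does not contain `A` has no element of order `p` -/
theorem nop_of_not (hs : S.SSC) {D : Subgroup (Gh k)} (hσ : ∀ x ∈ D, S.σ x ∈ D) (hM : ∀ m ∈ S.M, ∀ x ∈ D, m * x * m⁻¹ ∈ D)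
    (hA : ∃ x, S.ψ x ∉ D) {c : Gh k} (hc : c ∈ D) (hp : c ^ p = 1) : c = 1 := by
  have hfix := (S.base hM).resolve_right (not_forall.2 hA)
  rcases S.fpf' hσ hM hfix hc hp with h1 | ⟨-, y, hy, -, h1⟩
  · exact h1
  exfalso
  refine hs y (fun x => ?_) h1
  have h2 := Subgroup.mem_center_iff.1 (S.σ_σ_of_neg h1)
  have h3 : S.σ y = y * (y⁻¹ * S.σ y) := by group
  have h4 := eq_of_perfect S.perfect (f := (MulAut.conj y⁻¹).toMonoidHom.comp S.ψ) (g := S.ψ) (fun x => by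
    have h5 : S.ψ x⁻¹ * y⁻¹ * (S.ψ x⁻¹)⁻¹ * y ∈ D := mul_mem (hM _ (S.k_ψ_mem _) _ (inv_mem hy)) hy
    have h6 := hfix _ h5 (by
      rw [map_mul, map_mul, map_mul, map_inv S.σ, map_inv S.σ, S.k_σ_ψ, h3]
      generalize y⁻¹ * S.σ y = z at h2
      calc _ = S.ψ x⁻¹ * z⁻¹ * (y⁻¹ * (S.ψ x⁻¹)⁻¹ * y * z) := by group
        _ = _ := by rw [h2]; group)
    rw [map_inv, inv_inv] at h6
    show (S.ψ x)⁻¹ * (y⁻¹ * S.ψ x * y⁻¹⁻¹) ∈ _
    rwa [inv_inv, ← mul_assoc, ← mul_assoc]) x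
  have h5 : y⁻¹ * S.ψ x * y⁻¹⁻¹ = S.ψ x := h4
  rw [← h5]
  nth_rewrite 1 [h5]
  group

theorem sv_mulVec {I : Type} [Fintype I] [DecidableEq I] {c : I → Fin 7 → ℤ} {R : Gh k →* Matrix I I k} (hR : WRep c R)
    (g : Gh k) (x : I → k) : S.sv (R g *ᵥ x) = R (S.σ g) *ᵥ S.sv x := by
  funext i
  show S.s ((R g *ᵥ x) i) = _
  rw [RingHom.map_mulVec, ← hR.frob]
  rfl

/-- the pointwise stabiliser of a subspace -/
def Fx {I : Type} [Fintype I] [DecidableEq I] (R : Gh k →* Matrix I I k) (W : Submodule k (I → k)) : Subgroup (Gh k) where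
  carrier := {c | ∀ y ∈ W, R c *ᵥ y = y}
  one_mem' := fun y _ => by rw [map_one, one_mulVec]
  mul_mem' := fun ha hb y hy => by rw [mulVec_mul, hb y hy, ha y hy]
  inv_mem' := fun {c} hc y hy => by
    conv_lhs => rw [← hc y hy]
    rw [mulVec_inv]

/-- **PT** -/
theorem pt (hs : S.SSC) {I : Type} [Fintype I] [DecidableEq I] {c : I → Fin 7 → ℤ} {R : Gh k →* Matrix I I k}
    (hR : WRep c R) : S.PT R := by
  rintro W hW ⟨x, y, hy, hxy⟩ d hd hp
  refine S.nop_of_not hs (D := Fx R W) (fun e he z hz => ?_) (fun m hm e he z hz => ?_) ⟨x, fun h1 => hxy (h1 y hy)⟩ hd hp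
  · obtain ⟨z', hz', rfl⟩ := S.k_sv_surj (X := (W : Set (I → k))) hW.2 z hz
    exact (S.sv_mulVec hR e z').symm.trans (by rw [he z' hz']; rfl)
  · rw [mulVec_mul, mulVec_mul, he _ (hW.1 _ (inv_mem hm) z hz), mulVec_inv']

end Sit

end Cfsg.Agent.E7P
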