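import Cfsg.Agent.E7P.Base.Act

/-!
# S5932: the `p`-subgroups of `M` which are normalised by the Borel subgroup of `A` (helper32)

* `Sit.eq_U` : a `p`-subgroup of `M` which contains `U` and is normalised by `T_A` is `U`;
* `Sit.U_le` : `T_A` is irreducible on `U`;
* `Sit.TOP`, `Sit.RED` : statements.
-/

set_option autoImplicit false
set_option maxRecDepth 100000

namespace Cfsg.Agent.E7P

open Cfsg Cfsg.Lie Matrix Module
open Cfsg.Agent.H943.E7V.Block (D1 rho)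
open Cfsg.Agent.R2.T1 Cfsg.Agent.E7P.Kf
open Cfsg.Agent.H943.SL2Rel

universe u v

namespace Kf

theorem center_eq_one {k : Type u} [Field k] {p : ℕ} (hp : p.Prime) [CharP k p] {z : Gh k}
    (hz : z ∈ Subgroup.center (Gh k)) {n : ℕ} (hn : z ^ p ^ n = 1) : z = 1 := by
  rcases V_center hz with h1 | h1
  · exact faithful h1
  apply faithful
  rcases hp.eq_two_or_odd' with h5 | h5
  · subst h5
    rw [h1]
    exact LinearMap.ext fun v => funext fun i => CharTwo.neg_eq (v i)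
  · have h6 := congrArg (V k) hn
    rw [map_pow, h1, map_one] at h6
    rw [h1]
    exact (Odd.neg_one_pow (α := Module.End k (D1 → k)) (h5.pow (n := n))).symm.trans h6

variable {K : Type v} [Field K]

theorem u_inj {s t : K} (e : u s = u t) : s = t := congrArg (fun m : SpecialLinearGroup (Fin 2) K => m.1 0 1) e

theorem h_u_pow (c : Kˣ) (t : K) (n : ℕ) : ∃ s, (h c * u t) ^ n = h (c ^ n) * u s := by
  induction n with
  | zero => exact ⟨0, by rw [pow_zero, pow_zero, h_one, u_zero, mul_one]⟩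
  | succ n ih =>
    obtain ⟨s, hs⟩ := ih
    refine ⟨((c⁻¹ : Kˣ) : K) ^ 2 * s + t, ?_⟩
    have h1 : u s * h c = h c * u (((c⁻¹ : Kˣ) : K) ^ 2 * s) := by
      rw [h_u, ← mul_assoc, ← mul_pow, Units.mul_inv, one_pow, one_mul]
    rw [pow_succ, hs, pow_succ, h_mul, u_add, mul_assoc, ← mul_assoc (u s), h1]
    group

theorem eq_of_h_u {c d : Kˣ} {s t : K} (e : h c * u s = h d * u t) : c = d := by
  have h1 : ((h c).1 * (u s).1) 0 0 = ((h d).1 * (u t).1) 0 0 :=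
    congrArg (fun m : SpecialLinearGroup (Fin 2) K => m.1 0 0) e
  simp [h, u, Matrix.mul_apply, Fin.sum_univ_two] at h1
  exact Units.ext h1

theorem h_neg_one : (h (-1 : Kˣ) : SpecialLinearGroup (Fin 2) K) = -1 := by
  apply Subtype.ext
  ext i j
  fin_cases i <;> fin_cases j <;> simp [h]

theorem borel_of_zero {x : SpecialLinearGroup (Fin 2) K} (hx : x.1 1 0 = 0) : ∃ c t, x = h c * u t := by
  rcases H943.SL2Rel.bruhat x with h1 | ⟨r, c, t, rfl⟩
  · exact h1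
  exfalso
  have h1 : ((u r).1 * (h c).1 * (w : SpecialLinearGroup (Fin 2) K).1 * (u t).1) 1 0 = 0 := hx
  simp [h, u, w, Matrix.mul_apply, Fin.sum_univ_two] at h1

/-- the normaliser of `U` in `SL₂(K)` -/
theorem borel_of_norm {x : SpecialLinearGroup (Fin 2) K} {s : K} (e : x * u 1 * x⁻¹ = u s ∨ x * u 1 * x⁻¹ = - u s) :
    ∃ c t, x = h c * u t := by
  refine borel_of_zero ?_
  rcases e with e | e
  · have h1 : x.1 * (u 1).1 = (u s).1 * x.1 := 
      congrArg (fun m : SpecialLinearGroup (Fin 2) K => m.1) (mul_inv_eq_iff_eq_mul.1 e)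
    have h2 := congrFun (congrFun h1 1) 1
    simpa [u, Matrix.mul_apply, Fin.sum_univ_two] using h2
  · have h1 : x.1 * (u 1).1 = - (u s).1 * x.1 := 
      congrArg (fun m : SpecialLinearGroup (Fin 2) K => m.1) (mul_inv_eq_iff_eq_mul.1 e)
    have h2 := congrFun (congrFun h1 1) 1
    have h3 := congrFun (congrFun h1 1) 0
    simp [u, Matrix.mul_apply, Fin.sum_univ_two] at h2 h3
    by_cases h4 : (2 : K) = 0
    · linear_combination h2 - x.1 1 1 * h4
    · exact (mul_eq_zero.1 (show 2 * x.1 1 0 = 0 by linear_combination h3)).resolve_left h4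

theorem units_sq {c : Kˣ} (hc : c ^ 2 = 1) : c = 1 ∨ c = -1 := by
  have h1 : (c : K) ^ 2 = 1 := by rw [← Units.val_pow_eq_pow_val, hc, Units.val_one]
  rcases mul_self_eq_one_iff.1 (by rw [← sq]; exact h1 : (c : K) * c = 1) with h2 | h2
  · exact Or.inl (Units.ext h2)
  · exact Or.inr (Units.ext h2)

end Kf

namespace Sit

variable {p a b : ℕ} {F : Type u} {K : Type v} {k : Type u} [Field F] [Fintype F] [Field K] [Fintype K] [Field k]
  (S : Sit p a b F K k)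

theorem ψ_eq {x y : SpecialLinearGroup (Fin 2) K} (e : S.ψ x = S.ψ y) : x = y ∨ x = - y := by
  have h1 : S.ψ (x * y⁻¹) ∈ Subgroup.center (Gh k) := by
    rw [map_mul, map_inv, e, mul_inv_cancel]; exact one_mem _
  rcases S.ψ_mem_center.1 h1 with h2 | h2
  · exact Or.inl (mul_inv_eq_one.1 h2)
  · exact Or.inr (by rw [← neg_one_mul, ← h2, inv_mul_cancel_right])

theorem ψ_u_inj {s t : K} (e : S.ψ (u s) = S.ψ (u t)) : s = t := by
  by_contra hne
  exact S.ψ_u_ne (sub_ne_zero.2 hne) (by rw [sub_eq_add_neg, u_add, u_neg, map_mul, map_inv, e, mul_inv_cancel])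

/-- `T_A` is irreducible on `U` -/
theorem U_le {Q : Subgroup (Gh k)} (hT : ∀ c, ∀ y ∈ Q, S.ψ (h c) * y * (S.ψ (h c))⁻¹ ∈ Q) {t : K} (ht : t ≠ 0)
    (hQ : S.ψ (u t) ∈ Q) : S.U ≤ Q := by
  let B : AddSubgroup K :=
    { carrier := {t | S.ψ (u t) ∈ Q}
      zero_mem' := by
        show S.ψ (u 0) ∈ Q
        rw [u_zero, map_one]; exact one_mem _
      add_mem' := fun {s t} hs ht => by
        show S.ψ (u (s + t)) ∈ Q
        rw [u_add, map_mul]; exact mul_mem hs ht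
      neg_mem' := fun {s} hs => by
        show S.ψ (u (-s)) ∈ Q
        rw [u_neg, map_inv]; exact inv_mem hs }
  have h1 : B = ⊤ := eq_top_of_sq (fun c s hs => by
    by_cases hc : c = 0
    · rw [hc, zero_pow two_ne_zero, zero_mul]; exact zero_mem _
    · have h2 := hT (Units.mk0 c hc) _ hs
      rwa [← map_mul, h_u, map_mul, mul_inv_cancel_right] at h2) (fun h0 => ht (by
      have h2 : t ∈ B := hQ
      rwa [h0] at h2))
  rintro _ ⟨s, rfl⟩
  exact (h1 ▸ AddSubgroup.mem_top s : s ∈ B)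

include S in
theorem units_eq_one {c : Kˣ} {n : ℕ} (hc : c ^ p ^ n = 1) : c = 1 := by
  have := S.charK
  have : Fact p.Prime := ⟨S.prime⟩
  apply Units.ext
  have h1 : ((c : K) - 1) ^ p ^ n = 0 := by
    rw [sub_pow_char_pow, one_pow, ← Units.val_pow_eq_pow_val, hc, Units.val_one, sub_self]
  exact sub_eq_zero.1 (pow_eq_zero_iff (pow_ne_zero n S.prime.ne_zero) |>.1 h1)

/-- the `p`-elements of the Borel subgroup of `A` -/
theorem mem_U_of_borel {c : Kˣ} {t : K} {z : Gh k} (hz : z ∈ Subgroup.center (Gh k)) {n : ℕ}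
    (hn : (z * S.ψ (h c * u t)) ^ p ^ n = 1) : z * S.ψ (h c * u t) ∈ S.U := by
  have := S.chark
  have hc : Commute z (S.ψ (h c * u t)) := (Subgroup.mem_center_iff.1 hz _).symm
  obtain ⟨s, hs⟩ := h_u_pow c t (p ^ n)
  rw [hc.mul_pow, ← map_pow, hs] at hn
  have h1 : S.ψ (h (c ^ p ^ n) * u s) ∈ Subgroup.center (Gh k) := by
    rw [← inv_eq_of_mul_eq_one_right hn]
    exact inv_mem (pow_mem hz _)
  have hm := h_neg_one (K := K)
  have h2 : c ^ 2 = 1 := by
    refine S.units_eq_one (n := n) ?_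
    rw [← pow_mul, mul_comm, pow_mul]
    rcases S.ψ_mem_center.1 h1 with h2 | h2
    · rw [eq_of_h_u (d := 1) (t := 0) (h2.trans (by rw [h_one, u_zero, mul_one])), one_pow]
    · rw [eq_of_h_u (d := -1) (t := 0) (h2.trans (by rw [hm, u_zero, mul_one])), neg_one_sq]
  have h3 : S.ψ (h c) ∈ Subgroup.center (Gh k) := by
    rw [S.ψ_mem_center]
    rcases units_sq h2 with h4 | h4
    · left; rw [h4, h_one]
    · right; rw [h4, hm]
  have h4 : z * S.ψ (h c) = 1 := by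
    have h5 := mul_mem hz h3
    refine center_eq_one S.prime h5 (n := n + 1) ?_
    have h6 : Commute (z * S.ψ (h c)) (S.ψ (u t)) := (Subgroup.mem_center_iff.1 h5 _).symm
    have h7 : (z * S.ψ (h c) * S.ψ (u t)) ^ p ^ n = 1 := by
      rw [mul_assoc, ← map_mul, hc.mul_pow, ← map_pow, hs, hn]
    have h8 : (z * S.ψ (h c) * S.ψ (u t)) ^ p ^ (n + 1) = 1 := by rw [pow_succ, pow_mul, h7, one_pow]
    rwa [h6.mul_pow, pow_succ' p n, pow_mul (S.ψ (u t)), S.ψ_u_pow, one_pow, mul_one, ← pow_succ'] at h8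
  rw [map_mul, ← mul_assoc, h4, one_mul]
  exact ⟨t, rfl⟩

/-- **a `p`-subgroup of `M` which contains `U` and is normalised by `T_A` is `U`** -/
theorem eq_U {Q : Subgroup (Gh k)} (hQ : IsPGroup p Q) (hM : Q ≤ S.M) (hU : S.U ≤ Q)
    (hT : ∀ c, ∀ y ∈ Q, S.ψ (h c) * y * (S.ψ (h c))⁻¹ ∈ Q) : Q = S.U := by
  have : Fact p.Prime := ⟨S.prime⟩
  have := S.charK
  have hpow : ∀ y ∈ Q, ∃ n, y ^ p ^ n = 1 := fun y hy => by
    obtain ⟨n, hn⟩ := hQ ⟨y, hy⟩
    exact ⟨n, congrArg Subtype.val hn⟩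
  -- `Q ∩ A = U`
  have hA : ∀ x, S.ψ x ∈ Q → S.ψ x ∈ S.U := by
    intro x hx
    rcases H943.SL2Rel.bruhat x with ⟨c, t, rfl⟩ | ⟨r, c, t, rfl⟩
    · obtain ⟨n, hn⟩ := hpow _ hx
      have h1 := S.mem_U_of_borel (z := 1) (c := c) (t := t) (one_mem _) (n := n) (by rwa [one_mul])
      rwa [one_mul] at h1
    exfalso
    have h1 : S.ψ (h c * w) ∈ Q := by
      have h2 := mul_mem (mul_mem (inv_mem (hU ⟨r, rfl⟩)) hx) (inv_mem (hU ⟨t, rfl⟩))
      rwa [← map_inv, ← map_inv, ← map_mul, ← map_mul, show (u r)⁻¹ * (u r * h c * w * u t) * (u t)⁻¹ = h c * w by group]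
        at h2
    have h2 : ∀ d : Kˣ, S.ψ (h (d ^ 2) * u 0) ∈ Q := fun d => by
      have h3 := mul_mem (hT d _ h1) (inv_mem h1)
      rwa [← map_inv, ← map_inv, ← map_mul, ← map_mul, ← map_mul, ← h_inv, mul_assoc (h d), mul_assoc (h c), ← h_w,
        show h d * (h c * (h d * w)) * (h c * w)⁻¹ = h d * h c * h d * (h c)⁻¹ by group, ← h_mul, ← h_mul, ← h_inv, ← h_mul,
        show d * c * d * c⁻¹ = d ^ 2 by rw [mul_right_comm d c, mul_inv_cancel_right, sq], ← mul_one (h (d ^ 2)),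
        ← u_zero] at h3
    have h3 : ∀ d : Kˣ, d ^ 4 = 1 := fun d => by
      obtain ⟨n, hn⟩ := hpow _ (h2 d)
      obtain ⟨s, hs⟩ := S.mem_U_of_borel (z := 1) (c := d ^ 2) (t := 0) (one_mem _) (n := n) (by rwa [one_mul])
      rw [one_mul] at hs
      have hm := h_neg_one (K := K)
      rw [show 4 = 2 * 2 from rfl, pow_mul]
      rcases S.ψ_eq hs with h4 | h4
      · rw [eq_of_h_u (d := 1) (t := s) (h4.trans (by rw [h_one, one_mul])), one_pow]
      · rw [eq_of_h_u (d := -1) (t := s) (h4.trans (by rw [hm, neg_one_mul])), neg_one_sq]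
    classical
    obtain ⟨d, hd⟩ := IsCyclic.exists_ofOrder_eq_natCard (α := Kˣ)
    have h4 := Nat.le_of_dvd (by norm_num) (orderOf_dvd_of_pow_eq_one (h3 d))
    rw [hd, Nat.card_eq_fintype_card, Fintype.card_units, S.cardK] at h4
    have := S.eleven
    omega
  refine le_antisymm (fun y hy => ?_) hU
  obtain ⟨n, x, hn, e⟩ := S.exists_NB (hM hy)
  -- `x` lies in the Borel subgroup
  obtain ⟨c, t, rfl⟩ : ∃ c t, x = h c * u t := by
    obtain ⟨x', h1⟩ := S.norm_ψ (hM hy) (u 1)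
    have h2 : y * S.ψ (u 1) * y⁻¹ ∈ S.U := by
      have h3 := mul_mem (mul_mem hy (hU ⟨1, rfl⟩)) (inv_mem hy)
      rw [h1] at h3 ⊢
      exact hA _ h3
    obtain ⟨s, hs⟩ := hn.inv.conj_U h2
    rw [e, show n⁻¹ * (n * S.ψ x * S.ψ (u 1) * (n * S.ψ x)⁻¹) * n⁻¹⁻¹ = S.ψ x * S.ψ (u 1) * (S.ψ x)⁻¹ by group,
      ← map_inv, ← map_mul, ← map_mul] at hs
    exact borel_of_norm (S.ψ_eq hs)
  obtain ⟨hnM, c', τ, h1⟩ := hn
  have hm := h_neg_one (K := K)
  -- the element `y' = n ψ(h c)` normalises `T_A`, so it centralises it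
  set y' := n * S.ψ (h c) with hy'
  have hy'Q : y' ∈ Q := by
    have h2 := mul_mem hy (inv_mem (hU ⟨t, rfl⟩))
    rwa [e, map_mul, ← mul_assoc, mul_inv_cancel_right] at h2
  have h2 : ∀ d : Kˣ, y' * S.ψ (h d) * y'⁻¹ = S.ψ (h (Units.map (τ : K →* K) d)) := fun d => by
    rw [← aut_h c', h1, hy', mul_assoc n, ← map_mul, ← h_mul, mul_comm c d, h_mul, map_mul]
    group
  have h3 : ∀ d : Kˣ, τ ((d : K) ^ 2) = (d : K) ^ 2 := fun d => by
    have h4 := mul_mem hy'Q (hT d _ (inv_mem hy'Q))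
    rw [← mul_assoc, ← mul_assoc, h2, ← map_inv, ← map_mul, ← h_inv, ← h_mul] at h4
    obtain ⟨s, hs⟩ := hA _ h4
    have h5 : (Units.map (τ : K →* K) d * d⁻¹) ^ 2 = 1 := by
      rcases S.ψ_eq hs with h5 | h5
      · rw [eq_of_h_u (c := Units.map (τ : K →* K) d * d⁻¹) (d := 1) (s := 0) (t := s)
          (by rw [u_zero, mul_one, h5, h_one, one_mul]), one_pow]
      · rw [eq_of_h_u (c := Units.map (τ : K →* K) d * d⁻¹) (d := -1) (s := 0) (t := s)
          (by rw [u_zero, mul_one, h5, hm, neg_one_mul]), neg_one_sq]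
    rw [mul_pow, inv_pow, mul_inv_eq_one] at h5
    rw [map_pow]
    exact congrArg Units.val h5
  have h4 : ∀ s : K, τ s = s := by
    let B : AddSubgroup K := (τ : K →+ K).eqLocus (AddMonoidHom.id K)
    have h5 : ∀ s : K, τ (s ^ 2) = s ^ 2 := fun s => by
      by_cases hs : s = 0
      · rw [hs, zero_pow two_ne_zero, map_zero]
      · exact h3 (Units.mk0 s hs)
    have h6 : B = ⊤ := eq_top_of_sq (fun c s hs => by
      have h7 : τ s = s := hs
      show τ _ = _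
      rw [map_mul, h5, h7]; rfl) (fun h0 => by
      have h7 : (1 : K) ∈ B := map_one τ
      rw [h0] at h7
      exact one_ne_zero h7)
    intro s
    exact (h6 ▸ AddSubgroup.mem_top s : s ∈ B)
  have h5 : ∀ s, y' * S.ψ (u s) * y'⁻¹ = S.ψ (u (((c' * c ^ 2 : Kˣ) : K) * s)) := fun s => by
    have h6 := h1 (u ((c : K) ^ 2 * s))
    rw [aut_u, h4, ← mul_assoc] at h6
    rw [Units.val_mul, Units.val_pow_eq_pow_val, h6, hy', mul_assoc n, ← map_mul, h_u, map_mul]
    group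
  have h6 : c' * c ^ 2 = 1 := by
    obtain ⟨m, hm'⟩ := hpow _ hy'Q
    have h7 : ∀ j : ℕ, y' ^ j * S.ψ (u 1) * (y' ^ j)⁻¹ = S.ψ (u (((c' * c ^ 2) ^ j : Kˣ) : K)) := by
      intro j
      induction j with
      | zero => rw [pow_zero, pow_zero, one_mul, inv_one, mul_one, Units.val_one]
      | succ j ih =>
        rw [pow_succ', show y' * y' ^ j * S.ψ (u 1) * (y' * y' ^ j)⁻¹ = y' * (y' ^ j * S.ψ (u 1) * (y' ^ j)⁻¹) * y'⁻¹ by group,
          ih, h5, ← Units.val_mul, ← pow_succ']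
    have h8 := h7 (p ^ m)
    rw [hm', one_mul, inv_one, mul_one] at h8
    exact S.units_eq_one (Units.ext (S.ψ_u_inj h8).symm)
  have h7 : S.Cent y' := by
    intro x
    refine induct (P := fun x => S.ψ x * y' = y' * S.ψ x) (fun s => ?_) (fun d => ?_) ?_ (fun x x' hx hx' => by
      rw [map_mul, mul_assoc, hx', ← mul_assoc, hx, mul_assoc]) x
    · have h8 := h5 s
      rw [h6, Units.val_one, one_mul] at h8
      exact (mul_inv_eq_iff_eq_mul.1 h8).symm
    · have h8 := h2 d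
      rw [show Units.map (τ : K →* K) d = d from Units.ext (h4 d)] at h8
      exact (mul_inv_eq_iff_eq_mul.1 h8).symm
    · have h8 := h1 (h (c ^ 2) * w)
      rw [map_mul, aut_h, aut_w, show Units.map (τ : K →* K) (c ^ 2) = c ^ 2 from Units.ext (h4 _), ← mul_assoc, ← h_mul,
        mul_comm, h6, h_one, one_mul] at h8
      rw [sq, h_mul, mul_assoc (h c), h_w, map_mul, map_mul, h_inv, map_inv] at h8
      rw [hy']
      nth_rewrite 1 [h8]
      group
  have h8 := S.cent_fix h7 (S.k_σ_M (hM hy'Q))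
  obtain ⟨m, hm'⟩ := hpow _ hy'Q
  have := S.chark
  rw [e, map_mul, ← mul_assoc, ← hy', center_eq_one S.prime h8 hm', one_mul]
  exact ⟨t, rfl⟩

/-- the roots which are trivial on `g⁻¹ C g` -/
def Psi (C : Subgroup (Gh k)) (g : Gh k) (r : ℕ) : Prop := ∀ t, g * Phi k t * g⁻¹ ∈ C → rtv r t = 1

open Classical in
/-- **TOP** (task TOP) -/
def TOP : Prop := ∀ (C : Subgroup (Gh k)) (g : Gh k) (γ : E), (∀ c ∈ C, ∃ t, c = g * Phi k t * g⁻¹) →
  (∀ c ∈ C, S.σ c ∈ C) → (∀ m ∈ S.M, ∀ c ∈ C, m * c * m⁻¹ ∈ C) → (∀ c ∈ C, S.Cent c) →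
  (∃ c ∈ C, c ∉ Subgroup.center (Gh k)) → g⁻¹ * S.σ g ∈ Pl k γ → (∀ c, g⁻¹ * S.ψ (h c) * g ∈ Pl k γ) →
  (∀ t, g⁻¹ * S.ψ (u t) * g ∈ Ul k γ) →
  ∃ d : ℝ, 0 < d ∧ (∀ r < 126, Psi C g r → bf γ (rv r) = 0 ∨ bf γ (rv r) = d ∨ bf γ (rv r) = -d) ∧
    a = b * ((Finset.range 126).filter fun r => Psi C g r ∧ bf γ (rv r) = d).card

/-- **RED** : `A` is reducible (task RED) -/
def RED {I : Type} [Fintype I] [DecidableEq I] (R : Gh k →* Matrix I I k) : Prop :=
  ∃ Y : Submodule k (I → k), Y ≠ ⊥ ∧ Y ≠ ⊤ ∧ ∀ x, ∀ y ∈ Y, R (S.ψ x) *ᵥ y ∈ Y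

end Sit

end Cfsg.Agent.E7P
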